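import Cfsg.Agent.H63.McKay.Phase

/-!
# The number of irreducible characters over a set of characters of a normal subgroup

If `M` is normal with complement `H` and `X` is a stable set of irreducible characters of `M`,
then `|H|` times the number of irreducible characters lying over `X` is the sum of
`omega M ψ g h` over the commuting pairs `g, h` of `H` and over `ψ ∈ X`.
-/

set_option autoImplicit false

open scoped ComplexConjugate commutatorElement

namespace Cfsg.Agent.H63.McKay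

universe u

variable {G : Type u} [Group G] [Fintype G]

theorem card_conjugators (a b : G) :
    (Nat.card {z : G // z * a * z⁻¹ = b} : ℂ) =
      ∑ χ : Cfsg.IrrCharacter G, χ.1 b * conj (χ.1 a) := by
  classical
  rw [H26.column_orthogonality, H26.classIndicator]
  by_cases h : IsConj b a
  · rw [if_pos h, mul_one]
    obtain ⟨c, hc⟩ := isConj_iff.1 h.symm
    have e : {z : G // z * a * z⁻¹ = b} ≃ Subgroup.centralizer ({a} : Set G) :=
      { toFun := fun z => ⟨c⁻¹ * z.1, by
          rw [Subgroup.mem_centralizer_singleton_iff]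
          calc c⁻¹ * z.1 * a = c⁻¹ * (z.1 * a * z.1⁻¹) * z.1 := by group
            _ = c⁻¹ * (c * a * c⁻¹) * z.1 := by rw [z.2, hc]
            _ = a * (c⁻¹ * z.1) := by group⟩
        invFun := fun w => ⟨c * w.1, by
          have hw := Subgroup.mem_centralizer_singleton_iff.1 w.2
          calc c * w.1 * a * (c * w.1)⁻¹ = c * (w.1 * a) * w.1⁻¹ * c⁻¹ := by group
            _ = c * (a * w.1) * w.1⁻¹ * c⁻¹ := by rw [hw]
            _ = b := by rw [← hc]; group⟩
        left_inv := fun z => Subtype.ext (by simp)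
        right_inv := fun w => Subtype.ext (by simp) }
    rw [Nat.card_congr e]
  · rw [if_neg h, mul_zero]
    have : IsEmpty {z : G // z * a * z⁻¹ = b} :=
      ⟨fun z => h (isConj_iff.2 ⟨z.1, z.2⟩ : IsConj a b).symm⟩
    simp

variable (M : Subgroup G) [M.Normal] [Fintype M]

/-- The projection on the characters lying over a stable set. -/
theorem projection_over (X : Finset (Cfsg.IrrCharacter M))
    (hX : ∀ g : G, ∀ ψ ∈ X, H43.irrConj M g ψ ∈ X) (χ : Cfsg.IrrCharacter G) (a : G)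
    [Decidable (∃ ψ ∈ X, H43.restrMult M χ ψ ≠ 0)] :
    ∑ ψ ∈ X, ψ.1 1 / (Nat.card M : ℂ) * ∑ m : M, conj (ψ.1 m) * χ.1 ((m : G) * a) =
      if ∃ ψ ∈ X, H43.restrMult M χ ψ ≠ 0 then χ.1 a else 0 := by
  classical
  set F : M → ℂ := fun m => ∑ ψ ∈ X, ψ.1 1 * conj (ψ.1 m) with hF
  set f : G → ℂ := fun g => extFun M F g with hf
  have hFconj : ∀ (x : G) (m : M), F (MulAut.conjNormal x m) = F m := by
    intro x m
    refine Finset.sum_bij' (fun ψ _ => H43.irrConj M x ψ) (fun ψ _ => H43.irrConj M x⁻¹ ψ)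
      (fun ψ hψ => hX x ψ hψ) (fun ψ hψ => hX x⁻¹ ψ hψ) (fun ψ _ => ?_) (fun ψ _ => ?_)
      fun ψ _ => ?_
    · rw [H43.irrConj_irrConj, mul_inv_cancel]
      exact Subtype.ext (funext fun n => by simp [H43.irrConj_apply])
    · rw [H43.irrConj_irrConj, inv_mul_cancel]
      exact Subtype.ext (funext fun n => by simp [H43.irrConj_apply])
    · rw [H43.irrConj_apply, H43.irrConj_apply, map_one]
  have hfc : Cfsg.IsClassFunction G f := by
    intro g x
    by_cases hg : g ∈ M
    · have hg' : x * g * x⁻¹ ∈ M := ‹M.Normal›.conj_mem g hg x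
      show extFun M F (x * g * x⁻¹) = extFun M F g
      rw [extFun_mem M F hg, extFun_mem M F hg']
      exact hFconj x ⟨g, hg⟩
    · have hg' : x * g * x⁻¹ ∉ M := fun h => hg (by
        simpa [mul_assoc] using ‹M.Normal›.conj_mem _ h x⁻¹)
      simp [f, extFun, hg, hg']
  have hsum : ∀ b : G, ∑ g : G, f g * χ.1 (g * b) = ∑ m : M, F m * χ.1 ((m : G) * b) := by
    intro b
    rw [show ∑ g : G, f g * χ.1 (g * b) = ∑ g ∈ (M : Set G).toFinset, f g * χ.1 (g * b) from
      (Finset.sum_subset (Finset.subset_univ _) fun g _ hg => by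
        have : g ∉ M := by simpa using hg
        simp [f, extFun, this]).symm, Finset.sum_set_coe (f := fun g => f g * χ.1 (g * b))
        (s := (M : Set G)) |>.symm]
    refine Finset.sum_congr (by ext; simp) fun m _ => ?_
    show extFun M F m * _ = _
    rw [extFun_mem M F m.2]
    rfl
  have hone : ∑ g : G, f g * χ.1 g =
      (Nat.card M : ℂ) * ∑ ψ ∈ X, ψ.1 1 * (H43.restrMult M χ ψ : ℂ) := by
    have h := hsum 1
    simp only [mul_one] at h
    rw [h, Finset.mul_sum]
    simp only [F, Finset.sum_mul]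
    rw [Finset.sum_comm]
    refine Finset.sum_congr rfl fun ψ _ => ?_
    rw [mul_left_comm, ← H43.sum_restr_mul_conj, Finset.mul_sum]
    exact Finset.sum_congr rfl fun m _ => by ring
  have hlhs : ∑ ψ ∈ X, ψ.1 1 / (Nat.card M : ℂ) * ∑ m : M, conj (ψ.1 m) * χ.1 ((m : G) * a) =
      (Nat.card M : ℂ)⁻¹ * ∑ g : G, f g * χ.1 (g * a) := by
    rw [hsum]
    simp only [F, Finset.sum_mul, Finset.mul_sum]
    rw [Finset.sum_comm]
    exact Finset.sum_congr rfl fun m _ => Finset.sum_congr rfl fun ψ _ => by ring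
  have hM : (Nat.card M : ℂ) ≠ 0 := Nat.cast_ne_zero.2 Nat.card_pos.ne'
  rw [hlhs, H43.sum_mul_translate hfc, hone]
  split_ifs with hover
  · have hall : ∑ ψ ∈ X, ψ.1 1 * (H43.restrMult M χ ψ : ℂ) = χ.1 1 := by
      obtain ⟨ψ₀, hψ₀, hne⟩ := hover
      have h1 := H43.apply_one_eq_sum_mult (H43.isCharacter_restr M χ)
      rw [Subgroup.coe_one] at h1
      rw [h1]
      refine (Finset.sum_subset (Finset.subset_univ X) fun ψ _ hψ => ?_).trans
        (Finset.sum_congr rfl fun ψ _ => ?_)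
      · by_contra hnz
        have hm : H43.restrMult M χ ψ ≠ 0 := fun h0 => hnz (by rw [h0, Nat.cast_zero, mul_zero])
        obtain ⟨x, hx⟩ := H43.exists_irrConj_of_restrMult_ne_zero M χ hne hm
        exact hψ (hx ▸ hX x ψ₀ hψ₀)
      · rw [H43.irr_charDegree_spec, mul_comm]
        rfl
    rw [hall]
    have := H26.irr_one_ne_zero χ
    field_simp
  · push Not at hover
    rw [Finset.sum_eq_zero fun ψ hψ => by rw [hover ψ hψ, Nat.cast_zero, mul_zero]]
    simp

theorem sum_sq_norm (χ : Cfsg.IrrCharacter G) :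
    ∑ a : G, χ.1 a * conj (χ.1 a) = (Nat.card G : ℂ) := by
  classical
  rw [H43.sum_mul_conj, if_pos rfl]

/-- The number of irreducible characters over a stable set, with a supplement `H`. -/
theorem card_over_mul_card (H : Subgroup G) [Fintype H]
    [∀ a b : H, Decidable (⁅(a : G), (b : G)⁆ ∈ M)]
    (hH : H ⊔ M = ⊤) (X : Finset (Cfsg.IrrCharacter M))
    (hX : ∀ g : G, ∀ ψ ∈ X, H43.irrConj M g ψ ∈ X) :
    (Nat.card {χ : Cfsg.IrrCharacter G // ∃ ψ ∈ X, H43.restrMult M χ ψ ≠ 0} : ℂ) *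
        ((Nat.card H : ℂ) * (Nat.card (H ⊓ M : Subgroup G) : ℂ)) =
      ∑ g : H, ∑ h : H,
        if ⁅(g : G), (h : G)⁆ ∈ M then ∑ ψ ∈ X, omega M ψ.1 (g : G) (h : G) else 0 := by
  classical
  have hM : (Nat.card M : ℂ) ≠ 0 := Nat.cast_ne_zero.2 Nat.card_pos.ne'
  -- the count as a sum over commutators
  have h1 : (Nat.card {χ : Cfsg.IrrCharacter G // ∃ ψ ∈ X, H43.restrMult M χ ψ ≠ 0} : ℂ) *
      (Nat.card G : ℂ) =
      ∑ a : G, ∑ z : G, ∑ ψ ∈ X, ψ.1 1 / (Nat.card M : ℂ) * extFun M ψ.1 ⁅a, z⁆ := by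
    have hconj : ∀ a : G, ∑ χ : Cfsg.IrrCharacter G,
        (if ∃ ψ ∈ X, H43.restrMult M χ ψ ≠ 0 then χ.1 a * conj (χ.1 a) else 0) =
        ∑ z : G, ∑ ψ ∈ X, ψ.1 1 / (Nat.card M : ℂ) * extFun M ψ.1 ⁅a, z⁆ := by
      intro a
      have hh : ∀ χ : Cfsg.IrrCharacter G,
          (if ∃ ψ ∈ X, H43.restrMult M χ ψ ≠ 0 then χ.1 a * conj (χ.1 a) else 0) =
          ∑ ψ ∈ X, ψ.1 1 / (Nat.card M : ℂ) *
            ∑ m : M, conj (ψ.1 m) * (χ.1 ((m : G) * a) * conj (χ.1 a)) := by
        intro χ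
        have h := congrArg (fun c => c * conj (χ.1 a)) (projection_over M X hX χ a)
        simp only [ite_mul, zero_mul] at h
        rw [← h, Finset.sum_mul]
        refine Finset.sum_congr rfl fun ψ _ => ?_
        rw [mul_assoc, Finset.sum_mul]
        congr 1
        exact Finset.sum_congr rfl fun m _ => by ring
      simp_rw [hh]
      rw [Finset.sum_comm, Finset.sum_comm (γ := G)]
      refine Finset.sum_congr rfl fun ψ _ => ?_
      rw [← Finset.mul_sum, ← Finset.mul_sum]
      congr 1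
      rw [Finset.sum_comm]
      simp_rw [← Finset.mul_sum, ← card_conjugators, Nat.card_eq_fintype_card,
        Fintype.card_subtype, Finset.card_filter, Nat.cast_sum, Finset.mul_sum]
      rw [Finset.sum_comm]
      refine Finset.sum_congr rfl fun z _ => ?_
      have hkey : ∀ m : M, z * a * z⁻¹ = (m : G) * a ↔ ⁅z, a⁆ = (m : G) := fun m => by
        rw [commutatorElement_def, mul_inv_eq_iff_eq_mul (a := z * a * z⁻¹)]
      have hswap : extFun M ψ.1 ⁅a, z⁆ = conj (extFun M ψ.1 ⁅z, a⁆) := by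
        rw [← extFun_inv, commutatorElement_inv]
      rw [hswap]
      by_cases hc : ⁅z, a⁆ ∈ M
      · rw [Finset.sum_eq_single ⟨_, hc⟩, extFun_mem M ψ.1 hc, if_pos ((hkey _).2 rfl),
          Nat.cast_one, mul_one]
        · intro m _ hm
          rw [if_neg fun h => hm (Subtype.ext ((hkey m).1 h).symm), Nat.cast_zero, mul_zero]
        · exact fun h => absurd (Finset.mem_univ _) h
      · rw [show extFun M ψ.1 ⁅z, a⁆ = 0 by simp [extFun, hc], map_zero]
        refine Finset.sum_eq_zero fun m _ => ?_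
        rw [if_neg fun h => hc (((hkey m).1 h) ▸ m.2), Nat.cast_zero, mul_zero]
    calc _ = ∑ χ : Cfsg.IrrCharacter G,
          (if ∃ ψ ∈ X, H43.restrMult M χ ψ ≠ 0 then (Nat.card G : ℂ) else 0) := by
            rw [Finset.sum_ite, Finset.sum_const_zero, add_zero, Finset.sum_const, nsmul_eq_mul,
              Nat.card_eq_fintype_card, Fintype.card_subtype]
      _ = ∑ a : G, ∑ χ : Cfsg.IrrCharacter G,
          (if ∃ ψ ∈ X, H43.restrMult M χ ψ ≠ 0 then χ.1 a * conj (χ.1 a) else 0) := by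
            rw [Finset.sum_comm]
            refine Finset.sum_congr rfl fun χ _ => ?_
            split_ifs
            · exact (sum_sq_norm χ).symm
            · simp
      _ = _ := Finset.sum_congr rfl fun a _ => hconj a
  -- split the sums along the supplement
  set d := Nat.card (H ⊓ M : Subgroup G) with hd
  let f : H × M → G := fun w => (w.1 : G) * (w.2 : G)
  have hsurj : ∀ a : G, ∃ w, f w = a := fun a => by
    have ha : a ∈ ((H ⊔ M : Subgroup G) : Set G) := by rw [hH]; trivial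
    rw [Subgroup.mul_normal] at ha
    obtain ⟨h, hh, m, hm, e⟩ := ha
    exact ⟨(⟨h, hh⟩, ⟨m, hm⟩), e⟩
  have hfib : ∀ a : G, (Finset.univ.filter fun w => f w = a).card = d := by
    intro a
    obtain ⟨w₀, hw₀⟩ := hsurj a
    rw [← Fintype.card_subtype, ← Nat.card_eq_fintype_card]
    have hu : ∀ w, f w = a → (w₀.1 : G)⁻¹ * (w.1 : G) ∈ H ⊓ M := by
      intro w hw
      refine ⟨H.mul_mem (H.inv_mem w₀.1.2) w.1.2, ?_⟩
      have h : (w₀.1 : G)⁻¹ * (w.1 : G) = (w₀.2 : G) * (w.2 : G)⁻¹ := by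
        rw [eq_mul_inv_iff_mul_eq, mul_assoc, inv_mul_eq_iff_eq_mul]
        exact hw.trans hw₀.symm
      rw [h]
      exact M.mul_mem w₀.2.2 (M.inv_mem w.2.2)
    refine Nat.card_congr
      { toFun := fun w => ⟨_, hu w.1 w.2⟩
        invFun := fun u => ⟨(⟨(w₀.1 : G) * u, H.mul_mem w₀.1.2 u.2.1⟩,
          ⟨(u : G)⁻¹ * w₀.2, M.mul_mem (M.inv_mem u.2.2) w₀.2.2⟩), by
            show (w₀.1 : G) * u * ((u : G)⁻¹ * w₀.2) = a
            rw [← hw₀]
            show (w₀.1 : G) * u * ((u : G)⁻¹ * w₀.2) = (w₀.1 : G) * w₀.2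
            group⟩
        left_inv := fun w => by
          refine Subtype.ext (Prod.ext (Subtype.ext (by simp)) (Subtype.ext ?_))
          show ((w₀.1 : G)⁻¹ * (w.1.1 : G))⁻¹ * w₀.2 = w.1.2
          rw [mul_inv_rev, inv_inv, mul_assoc, show (w₀.1 : G) * (w₀.2 : G) = a from hw₀,
            inv_mul_eq_iff_eq_mul]
          exact w.2.symm
        right_inv := fun u => Subtype.ext (by simp) }
  have hpush : ∀ F : G → ℂ, ∑ w, F (f w) = (d : ℂ) * ∑ a : G, F a := by
    intro F
    rw [← Finset.sum_fiberwise' Finset.univ f F, Finset.mul_sum]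
    refine Finset.sum_congr rfl fun a _ => ?_
    rw [Finset.sum_const, hfib, nsmul_eq_mul]
  have hcard : (Nat.card H : ℂ) * (Nat.card M : ℂ) = (d : ℂ) * (Nat.card G : ℂ) := by
    have h := hpush fun _ => 1
    simp only [Finset.sum_const, nsmul_eq_mul, mul_one, Finset.card_univ,
      ← Nat.card_eq_fintype_card] at h
    rwa [Nat.card_prod, Nat.cast_mul] at h
  have hne : ∀ (g h : H) (k l : M), ⁅(g : G), (h : G)⁆ ∉ M →
      ⁅(g : G) * k, (h : G) * l⁆ ∉ M := by
    intro g h k l hc hmem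
    apply hc
    have h1 : QuotientGroup.mk' M ⁅(g : G) * k, (h : G) * l⁆ = 1 :=
      (QuotientGroup.eq_one_iff _).2 hmem
    rw [map_commutatorElement, map_mul, map_mul,
      show QuotientGroup.mk' M (k : G) = 1 from (QuotientGroup.eq_one_iff _).2 k.2,
      show QuotientGroup.mk' M (l : G) = 1 from (QuotientGroup.eq_one_iff _).2 l.2,
      mul_one, mul_one, ← map_commutatorElement] at h1
    exact (QuotientGroup.eq_one_iff _).1 h1
  have h2 : (d : ℂ) * ((d : ℂ) * ∑ a : G, ∑ z : G, ∑ ψ ∈ X,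
      ψ.1 1 / (Nat.card M : ℂ) * extFun M ψ.1 ⁅a, z⁆) =
      ∑ g : H, ∑ h : H,
        if ⁅(g : G), (h : G)⁆ ∈ M then
          ∑ ψ ∈ X, (Nat.card M : ℂ) * omega M ψ.1 (g : G) (h : G) else 0 := by
    rw [← hpush, Finset.mul_sum]
    simp_rw [← hpush]
    rw [Fintype.sum_prod_type]
    refine Finset.sum_congr rfl fun g _ => ?_
    rw [Finset.sum_congr rfl fun k _ => Fintype.sum_prod_type (fun w : H × M =>
      ∑ ψ ∈ X, ψ.1 1 / (Nat.card M : ℂ) * extFun M ψ.1 ⁅f (g, k), f w⁆)]
    rw [Finset.sum_comm]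
    refine Finset.sum_congr rfl fun h _ => ?_
    by_cases hc : ⁅(g : G), (h : G)⁆ ∈ M
    · rw [if_pos hc, Finset.sum_congr rfl fun k _ => Finset.sum_comm, Finset.sum_comm]
      refine Finset.sum_congr rfl fun ψ _ => ?_
      rw [omega_def]
      simp_rw [← Finset.mul_sum]
      field_simp
      rfl
    · rw [if_neg hc]
      refine Finset.sum_eq_zero fun k _ => Finset.sum_eq_zero fun l _ =>
        Finset.sum_eq_zero fun ψ _ => ?_
      rw [show extFun M ψ.1 ⁅f (g, k), f (h, l)⁆ = 0 by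
        simp [f, extFun, hne g h k l hc], mul_zero]
  rw [← h1] at h2
  have h4 : ∀ g h : H, (if ⁅(g : G), (h : G)⁆ ∈ M then
      ∑ ψ ∈ X, (Nat.card M : ℂ) * omega M ψ.1 (g : G) (h : G) else 0) = (Nat.card M : ℂ) *
        if ⁅(g : G), (h : G)⁆ ∈ M then ∑ ψ ∈ X, omega M ψ.1 (g : G) (h : G) else 0 := fun g h => by
    split_ifs
    · rw [Finset.mul_sum]
    · simp
  simp_rw [h4, ← Finset.mul_sum] at h2
  refine mul_left_cancel₀ hM (Eq.trans ?_ h2)
  rw [show ∀ c a b m : ℂ, m * (c * (a * b)) = c * b * (a * m) from fun c a b m => by ring, hcard]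
  ring

end Cfsg.Agent.H63.McKay
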