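import Cfsg.Agent.H63.McKay.Phase
import Cfsg.Agent.H43.InvCount

/-!
# Extensions with prescribed determinant, central scalars
-/

set_option autoImplicit false

open scoped ComplexConjugate

namespace Cfsg.Agent.H63.McKay

universe u v w

theorem eq_one_of_pows {A : Type*} [Monoid A] {a : A} {d n : ℕ} (hd : a ^ d = 1) (hn : a ^ n = 1)
    (hc : d.Coprime n) : a = 1 := by
  have := pow_gcd_eq_one.2 ⟨hd, hn⟩
  rwa [hc.gcd_eq_one, pow_one] at this

theorem eq_of_pow_eq {A : Type*} [CommGroup A] {a b : A} {d n : ℕ} (hd : a ^ d = b ^ d)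
    (ha : a ^ n = 1) (hb : b ^ n = 1) (hc : d.Coprime n) : a = b := by
  rw [← div_eq_one]
  exact eq_one_of_pows (by rw [div_pow, hd, div_self']) (by rw [div_pow, ha, hb, div_one]) hc

theorem exists_root {A : Type*} [CommGroup A] {a : A} {d n : ℕ} (ha : a ^ n = 1)
    (hc : d.Coprime n) : ∃ b : A, b ^ d = a ∧ b ^ n = 1 := by
  obtain ⟨m, hm⟩ := exists_pow_eq_self_of_coprime (x := a)
    (hc.coprime_dvd_right (orderOf_dvd_of_pow_eq_one ha))
  exact ⟨a ^ m, by rw [← pow_mul, mul_comm, pow_mul, hm], by rw [pow_right_comm, ha, one_pow]⟩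

theorem hom_pow_card {S : Type*} [Group S] [Finite S] (f : S →* ℂˣ) : f ^ Nat.card S = 1 :=
  MonoidHom.ext fun s => by
    rw [MonoidHom.pow_apply, ← map_pow, pow_card_eq_one', map_one, MonoidHom.one_apply]

variable {M : Type u} [Group M] [Fintype M]

/-- Restriction to the image of an injective map with normal range. -/
theorem exists_restrict_hom {K : Type v} [Group K] [Fintype K] (jK : K →* M)
    (hinj : Function.Injective jK) (hn : jK.range.Normal) (ψ : Cfsg.IrrCharacter M)
    (hcop : (Cfsg.charDegree ψ.1).Coprime jK.range.index) :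
    ∃ θ : Cfsg.IrrCharacter K, ∀ k, ψ.1 (jK k) = θ.1 k := by
  haveI := hn
  haveI : Fintype jK.range := Fintype.ofFinite _
  obtain ⟨θ, hθ⟩ := H43.exists_irr_restrict jK.range ψ hcop
  exact ⟨H43.irrCongr (MonoidHom.ofInjective hinj) θ, fun k => hθ (MonoidHom.ofInjective hinj k)⟩

/-- Extension to a product with a `p`-group with given determinant on the `p`-group. -/
theorem existsUnique_ext_det {p : ℕ} [hp : Fact p.Prime] {K : Type v} [Group K] [Fintype K]
    {S : Type w} [Group S] [Fintype S] (jK : K →* M) (jS : S →* M)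
    (hK0 : Function.Injective jK) (hS0 : Function.Injective jS) (hn : jK.range.Normal)
    (hgen : jK.range ⊔ jS.range = ⊤) (hK : ¬ p ∣ Nat.card K) (hS : IsPGroup p S)
    (θ : Cfsg.IrrCharacter K)
    (hθ : ∀ (s : S) (k k' : K), jK k' = jS s * jK k * (jS s)⁻¹ → θ.1 k' = θ.1 k)
    (δ : S →* ℂˣ) :
    ∃! ψ : Cfsg.IrrCharacter M, (∀ k, ψ.1 (jK k) = θ.1 k) ∧
      ∀ s, Cfsg.detChar ψ.1 (jS s) = (δ s : ℂ) := by
  classical
  haveI := hn
  haveI : Fintype jK.range := Fintype.ofFinite _
  set e : K ≃* jK.range := MonoidHom.ofInjective hK0 with he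
  set eS : S ≃* jS.range := MonoidHom.ofInjective hS0 with heS
  have hcardK : Nat.card jK.range = Nat.card K := (Nat.card_congr e.toEquiv).symm
  have hcardS : Nat.card jS.range = Nat.card S := (Nat.card_congr eS.toEquiv).symm
  have hcop : (Nat.card K).Coprime (Nat.card S) := by
    obtain ⟨m, hm⟩ := IsPGroup.iff_card.1 hS
    rw [hm]
    exact ((hp.out.coprime_iff_not_dvd.2 hK).symm).pow_right m
  have hcompl : jS.range.IsComplement' jK.range :=
    Subgroup.isComplement'_of_disjoint_and_mul_eq_univ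
      (Subgroup.disjoint_of_coprime_natCard (by rw [hcardK, hcardS]; exact hcop.symm))
      (by rw [← Subgroup.mul_normal, sup_comm, hgen, Subgroup.coe_top])
  have hidx : jK.range.index = Nat.card S := by rw [hcompl.index_eq_card, hcardS]
  set θ' : Cfsg.IrrCharacter jK.range := H43.irrCongr e.symm θ with hθ'
  have hθ'e : ∀ k, θ'.1 (e k) = θ.1 k := fun k => by
    rw [hθ', H43.irrCongr_apply, MulEquiv.symm_apply_apply]
  have hinv : ∀ x : M, H43.irrConj jK.range x θ' = θ' := by
    refine H43.irrConj_eq_self_of_sup_eq_top _ θ' jS.range hgen ?_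
    rintro _ ⟨s, rfl⟩
    refine Subtype.ext (funext fun n => ?_)
    obtain ⟨k, rfl⟩ := e.surjective n
    obtain ⟨k', hk'⟩ := e.surjective (MulAut.conjNormal (jS s) (e k))
    rw [H43.irrConj_apply, ← hk', hθ'e, hθ'e]
    refine hθ s k k' ?_
    have h := congrArg Subtype.val hk'
    rw [MulAut.conjNormal_apply] at h
    exact h
  have hdeg : Cfsg.charDegree θ'.1 = Cfsg.charDegree θ.1 := H43.charDegree_irrCongr _ _
  have hdcop : (Cfsg.charDegree θ.1).Coprime (Nat.card S) :=
    hcop.coprime_dvd_left (H43.irr_charDegree_dvd θ)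
  obtain ⟨ψ₀, hψ₀, -⟩ := H43.exists_coprime_ext θ' hinv (by
    rw [hidx, hdeg]
    refine (Nat.Coprime.mul_left ?_ hdcop).symm
    refine hcop.coprime_dvd_left ?_
    rw [← hcardK]
    exact H43.detOrder_dvd_card (H26.irr_isCharacter θ'))
  set d := Cfsg.charDegree θ.1 with hd
  have hdeg0 : ∀ ψ : Cfsg.IrrCharacter M, (∀ k, ψ.1 (jK k) = θ.1 k) →
      Cfsg.charDegree ψ.1 = d := fun ψ h => by
    simp only [hd, Cfsg.charDegree]
    rw [← h 1, map_one]
  have hψ₀' : ∀ k, ψ₀.1 (jK k) = θ.1 k := fun k => (hψ₀ (e k)).trans (hθ'e k)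
  obtain ⟨f, hf, -⟩ := H43.exists_detHom (H26.irr_isCharacter ψ₀)
  obtain ⟨μ, hμd, -⟩ := exists_root (a := δ / f.comp jS) (hom_pow_card _) hdcop
  set π : M →* S := eS.symm.toMonoidHom.comp
    (hcompl.QuotientMulEquiv.toMonoidHom.comp (QuotientGroup.mk' jK.range)) with hπ
  have hπK : ∀ k, π (jK k) = 1 := fun k => by
    rw [hπ, MonoidHom.comp_apply, MonoidHom.comp_apply, QuotientGroup.mk'_apply,
      (QuotientGroup.eq_one_iff (jK k)).2 (MonoidHom.mem_range.2 ⟨k, rfl⟩), map_one, map_one]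
  have hπS : ∀ s, π (jS s) = s := fun s => by
    show eS.symm (hcompl.QuotientMulEquiv (QuotientGroup.mk' jK.range (jS s))) = s
    rw [MulEquiv.symm_apply_eq]
    exact hcompl.QuotientMulEquiv.symm.injective (by
      rw [MulEquiv.symm_apply_apply]; rfl)
  refine ⟨H43.irrTwist ψ₀ (μ.comp π), ⟨fun k => ?_, fun s => ?_⟩, ?_⟩
  · rw [H43.irrTwist_apply, MonoidHom.comp_apply, hπK, map_one, Units.val_one, mul_one, hψ₀']
  · rw [H43.detChar_irrTwist]
    dsimp only
    rw [hdeg0 ψ₀ hψ₀', MonoidHom.comp_apply, hπS, hf, ← Units.val_pow_eq_pow_val,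
      ← Units.val_mul, ← MonoidHom.pow_apply, hμd, MonoidHom.div_apply, MonoidHom.comp_apply,
      mul_div_cancel]
  · rintro ψ ⟨hψ, hψdet⟩
    obtain ⟨g, hgK, rfl⟩ := H43.exists_hom_of_restrict_eq jK.range
      (H43.irrTwist ψ₀ (μ.comp π)) ψ θ'
      (fun n => by
        obtain ⟨k, rfl⟩ := e.surjective n
        rw [hθ'e, H43.irrTwist_apply, show ((e k : jK.range) : M) = jK k from rfl,
          MonoidHom.comp_apply, hπK, map_one, Units.val_one, mul_one, hψ₀'])
      (fun n => by
        obtain ⟨k, rfl⟩ := e.surjective n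
        rw [hθ'e]
        exact hψ k)
    have hgS : ∀ s, g (jS s) = 1 := fun s => by
      refine eq_one_of_pows (d := d) ?_ (DFunLike.congr_fun (hom_pow_card (g.comp jS)) s) hdcop
      have h := hψdet s
      rw [H43.detChar_irrTwist] at h
      dsimp only at h
      rw [H43.detChar_irrTwist] at h
      dsimp only at h
      rw [H43.charDegree_irrTwist, hdeg0 ψ₀ hψ₀', MonoidHom.comp_apply, hπS, hf,
        ← Units.val_pow_eq_pow_val, ← Units.val_mul, ← Units.val_pow_eq_pow_val,
        ← Units.val_mul, ← MonoidHom.pow_apply, hμd, MonoidHom.div_apply, MonoidHom.comp_apply,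
        mul_div_cancel] at h
      exact mul_left_cancel ((Units.ext h).trans (mul_one _).symm)
    have hg : g = 1 := by
      have hle : jK.range ⊔ jS.range ≤ g.ker := sup_le
        (fun k hk => hgK k hk) (by rintro _ ⟨s, rfl⟩; exact hgS s)
      rw [hgen] at hle
      exact MonoidHom.ext fun x => hle (Subgroup.mem_top x)
    rw [hg, H43.irrTwist_one]

/-- Central elements act by a linear character, which gives the determinant there. -/
theorem exists_centralHom (ψ : Cfsg.IrrCharacter M) :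
    ∃ c : Subgroup.center M →* ℂˣ, ∀ z : Subgroup.center M,
      (∀ x : M, ψ.1 (x * z) = (c z : ℂ) * ψ.1 x) ∧
        Cfsg.detChar ψ.1 z = (c z : ℂ) ^ Cfsg.charDegree ψ.1 := by
  obtain ⟨n, ρ, hρ, e⟩ := ψ.2
  haveI := hρ
  haveI := H25.nontrivial_of_isIrreducible ρ
  set a : Subgroup.center M → ℂ := fun z =>
    LinearMap.trace ℂ _ (ρ z) / (Module.finrank ℂ (Fin n → ℂ) : ℂ) with ha
  have hsc : ∀ z : Subgroup.center M, ρ z = a z • (LinearMap.id : (Fin n → ℂ) →ₗ[ℂ] _) :=
    fun z => H25.eq_smul_id_of_comm ρ (ρ z) fun y => by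
      rw [← Module.End.mul_eq_comp, ← Module.End.mul_eq_comp, ← map_mul, ← map_mul,
        Subgroup.mem_center_iff.mp z.2 y]
  have hinj : ∀ b b' : ℂ,
      b • (LinearMap.id : (Fin n → ℂ) →ₗ[ℂ] (Fin n → ℂ)) = b' • LinearMap.id → b = b' := by
    intro b b' h
    have h' := congrArg (LinearMap.trace ℂ _) h
    rw [map_smul, map_smul, LinearMap.trace_id, smul_eq_mul, smul_eq_mul] at h'
    exact mul_right_cancel₀
      (Nat.cast_ne_zero.2 (H25.finrank_pos_of_isIrreducible ρ).ne') h'
  let am : Subgroup.center M →* ℂ :=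
    { toFun := a
      map_one' := hinj _ _ (by rw [← hsc, Subgroup.coe_one, map_one, one_smul]; rfl)
      map_mul' := fun z z' => hinj _ _ (by
        rw [← hsc, Subgroup.coe_mul, map_mul, hsc z, hsc z', Module.End.mul_eq_comp,
          LinearMap.smul_comp, LinearMap.id_comp, smul_smul]) }
  refine ⟨am.toHomUnits, fun z => ⟨fun x => ?_, ?_⟩⟩
  · rw [← e]
    show LinearMap.trace ℂ _ (ρ (x * z)) = a z * LinearMap.trace ℂ _ (ρ x)
    rw [map_mul, hsc z, mul_smul_comm, map_smul, smul_eq_mul]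
    rfl
  · rw [← e, H43.detChar_eq]
    dsimp only
    rw [H43.detHom_coe, hsc z, LinearMap.det_smul, LinearMap.det_id, mul_one, Cfsg.charDegree,
      ρ.char_one, Complex.natCast_re, Nat.floor_natCast]
    rfl

/-- A central scalar is shared with every constituent of a restriction. -/
theorem central_scalar_of_mult {C : Type v} [Group C] [Fintype C] (j : C →* M)
    (ψ : Cfsg.IrrCharacter M) (φ : Cfsg.IrrCharacter C)
    (hm : H43.mult (fun x => ψ.1 (j x)) φ ≠ 0) {z : C} (hz : z ∈ Subgroup.center C)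
    (hz' : j z ∈ Subgroup.center M) (a b : ℂ) (ha : ψ.1 (j z) = a * ψ.1 1)
    (hb : φ.1 z = b * φ.1 1) : a = b := by
  obtain ⟨c, hc⟩ := exists_centralHom ψ
  obtain ⟨c', hc'⟩ := exists_centralHom φ
  haveI : Fintype (Subgroup.center C) := Fintype.ofFinite _
  have h1 : ∀ x, ψ.1 (x * j z) = a * ψ.1 x := by
    have h := (hc ⟨_, hz'⟩).1
    have : (c ⟨_, hz'⟩ : ℂ) = a := by
      refine mul_right_cancel₀ (H26.irr_one_ne_zero ψ) ?_
      rw [← h 1, one_mul, ha]
    exact fun x => this ▸ h x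
  have h2 : ∀ x, φ.1 (x * z) = b * φ.1 x ∧ b * conj b = 1 := by
    have h := (hc' ⟨_, hz⟩).1
    have : (c' ⟨_, hz⟩ : ℂ) = b := by
      refine mul_right_cancel₀ (H26.irr_one_ne_zero φ) ?_
      rw [← h 1, one_mul, hb]
    exact fun x => ⟨this ▸ h x, this ▸ H43.hom_mul_conj c' _⟩
  set S : ℂ := ∑ x : C, ψ.1 (j x) * conj (φ.1 x) with hS
  have hS0 : S ≠ 0 := by
    have h := H43.classInner_eq_mult (φ := fun x : C => ψ.1 (j x))
      (H26.isCharacter_comp (H26.irr_isCharacter ψ) j) φ
    rw [Cfsg.classInner] at h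
    intro h0
    rw [← hS, h0, mul_zero] at h
    exact hm (Nat.cast_eq_zero.mp h.symm)
  have key : a * conj b * S = S := by
    rw [hS, Finset.mul_sum]
    refine Fintype.sum_equiv (Equiv.mulRight z) _ _ fun x => ?_
    simp only [Equiv.coe_mulRight, map_mul, h1, (h2 x).1]
    ring
  have h3 : a * conj b = 1 := mul_right_cancel₀ hS0 (key.trans (one_mul S).symm)
  calc a = a * (b * conj b) := by rw [(h2 1).2, mul_one]
    _ = b * (a * conj b) := by ring
    _ = b := by rw [h3, mul_one]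

end Cfsg.Agent.H63.McKay
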