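import Cfsg.Agent.H26.CharReal
import Cfsg.Agent.H39.Intertwiner
import Cfsg.Agent.H43.LinearTwist
import Cfsg.Agent.H43.Constituents
import Cfsg.Agent.H43.InterGroup

/-!
# The commutator sum of a character on a normalised subgroup

For commuting `x`, `y` normalising `K` and an irreducible `θ` of `K`, the number
`omega K θ x y = θ(1)/|K|² ∑ θ([x k, y l])` vanishes unless `x` and `y` fix `θ`, and is otherwise
the factor by which `x` moves an extension of `θ` to `K⟨y⟩`, evaluated at `y`.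
-/

set_option autoImplicit false

open scoped ComplexConjugate commutatorElement

namespace Cfsg.Agent.H63.McKay

universe u

variable {G : Type u} [Group G]

/-- Extension by zero of a function on a subgroup. -/
noncomputable def extFun (K : Subgroup G) (θ : K → ℂ) (g : G) : ℂ :=
  open Classical in if h : g ∈ K then θ ⟨g, h⟩ else 0

theorem extFun_mem (K : Subgroup G) (θ : K → ℂ) {g : G} (h : g ∈ K) :
    extFun K θ g = θ ⟨g, h⟩ := by
  simp [extFun, h]

/-- The normalised commutator sum. -/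
noncomputable def omega (K : Subgroup G) (θ : K → ℂ) (x y : G) : ℂ :=
  θ 1 / (Nat.card K : ℂ) ^ 2 *
    ∑ᶠ k : K, ∑ᶠ l : K, extFun K θ ⁅x * (k : G), y * (l : G)⁆

theorem omega_def (K : Subgroup G) [Fintype K] (θ : K → ℂ) (x y : G) :
    omega K θ x y = θ 1 / (Nat.card K : ℂ) ^ 2 *
      ∑ k : K, ∑ l : K, extFun K θ ⁅x * (k : G), y * (l : G)⁆ := by
  rw [omega, finsum_eq_sum_of_fintype]
  simp_rw [finsum_eq_sum_of_fintype]

/-- `x` fixes the function `θ` on `K`. -/
def Fix (K : Subgroup G) (θ : K → ℂ) (x : G) : Prop :=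
  ∀ k l : K, (l : G) = x * k * x⁻¹ → θ l = θ k

theorem conj_mem {K : Subgroup G} {x : G} (hx : x ∈ Subgroup.normalizer (K : Set G)) {k : G}
    (hk : k ∈ K) : x * k * x⁻¹ ∈ K :=
  (Subgroup.mem_normalizer_iff.1 hx k).1 hk

theorem commutator_mem {K : Subgroup G} {x y : G} (hx : x ∈ Subgroup.normalizer (K : Set G))
    (hy : y ∈ Subgroup.normalizer (K : Set G)) (hxy : ⁅x, y⁆ ∈ K) (k l : K) :
    ⁅x * (k : G), y * (l : G)⁆ ∈ K := by
  have h1 : (k : G) * (y * l * (k : G)⁻¹ * (l : G)⁻¹ * y⁻¹) ∈ K :=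
    K.mul_mem k.2 (by
      rw [show y * (l : G) * (k : G)⁻¹ * (l : G)⁻¹ * y⁻¹ =
        y * ((l : G) * (k : G)⁻¹ * (l : G)⁻¹) * y⁻¹ by group]
      exact conj_mem hy (K.mul_mem (K.mul_mem l.2 (K.inv_mem k.2)) (K.inv_mem l.2)))
  have h2 : y * (x * (l : G) * x⁻¹ * (l : G)⁻¹) * y⁻¹ ∈ K :=
    conj_mem hy (K.mul_mem (conj_mem hx l.2) (K.inv_mem l.2))
  have h3 := K.mul_mem (conj_mem hx h1) (K.mul_mem hxy h2)
  rw [commutatorElement_def]
  rw [commutatorElement_def] at h3
  convert h3 using 1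
  calc x * (k : G) * (y * l) * (x * k)⁻¹ * (y * l)⁻¹
      = x * ((k : G) * (y * l * (k : G)⁻¹ * (l : G)⁻¹ * y⁻¹)) * x⁻¹ *
          ((x * y) * l * x⁻¹ * (l : G)⁻¹ * y⁻¹) := by group
    _ = _ := by group

theorem commutator_mul_mem {K : Subgroup G} {x x' y : G}
    (hx : x ∈ Subgroup.normalizer (K : Set G)) (h : ⁅x, y⁆ ∈ K) (h' : ⁅x', y⁆ ∈ K) :
    ⁅x * x', y⁆ ∈ K := by
  have := K.mul_mem (conj_mem hx h') h
  simp only [commutatorElement_def] at this ⊢
  convert this using 1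
  group

theorem self_commutator_mem (K : Subgroup G) (x : G) : ⁅x, x⁆ ∈ K := by
  rw [commutatorElement_self]
  exact K.one_mem

theorem extFun_inv (K : Subgroup G) [Finite K] (θ : Cfsg.IrrCharacter K) (g : G) :
    extFun K θ.1 g⁻¹ = conj (extFun K θ.1 g) := by
  have := Fintype.ofFinite K
  by_cases h : g ∈ K
  · rw [extFun_mem K θ.1 h, extFun_mem K θ.1 (K.inv_mem h), ← H26.irr_inv]
    rfl
  · have h' : g⁻¹ ∉ K := fun h' => h (inv_inv g ▸ K.inv_mem h')
    simp [extFun, h, h']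

/-- Interchanging the two elements conjugates the sum. -/
theorem omega_swap (K : Subgroup G) [Finite K] (θ : Cfsg.IrrCharacter K) (x y : G) :
    omega K θ.1 y x = conj (omega K θ.1 x y) := by
  have := Fintype.ofFinite K
  rw [omega_def, omega_def, map_mul, map_div₀, map_pow, Complex.conj_natCast, ← H26.irr_inv,
    inv_one, map_sum]
  simp_rw [map_sum]
  rw [Finset.sum_comm]
  congr 1
  refine Finset.sum_congr rfl fun k _ => Finset.sum_congr rfl fun l _ => ?_
  rw [← extFun_inv, commutatorElement_inv]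

/-- Schur: averaging a conjugated product gives the product of the traces. -/
theorem sum_conj_trace {K : Type*} [Group K] [Fintype K] {n : ℕ}
    (σ : Representation ℂ K (Fin n → ℂ)) [σ.IsIrreducible] (A C : Matrix (Fin n) (Fin n) ℂ) :
    ∑ k : K, (A * H26.matHom σ k * C * H26.matHom σ k⁻¹).trace =
      (Nat.card K : ℂ) / n * (A.trace * C.trace) := by
  have hn : (n : ℂ) ≠ 0 := by
    have := H25.finrank_pos_of_isIrreducible σ
    rw [Module.finrank_fin_fun] at this
    exact_mod_cast this.ne'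
  set M := H26.matHom σ
  set Q : Matrix (Fin n) (Fin n) ℂ := ∑ k : K, M k * C * M k⁻¹ with hQ
  have hcomm : ∀ a, M a * Q = Q * M a := fun a => by
    rw [hQ, Finset.mul_sum, Finset.sum_mul]
    refine Fintype.sum_equiv (Equiv.mulLeft a) _ _ fun g => ?_
    simp only [Equiv.coe_mulLeft, mul_inv_rev, map_mul, mul_assoc]
    rw [← map_mul M a⁻¹ a, inv_mul_cancel, map_one, mul_one]
  obtain ⟨c, hc⟩ := H26.matrix_schur σ Q hcomm
  have htr : Q.trace = (Nat.card K : ℂ) * C.trace := by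
    rw [hQ, Matrix.trace_sum]
    have h1 : ∀ g : K, (M g * C * M g⁻¹).trace = C.trace := fun g => by
      rw [Matrix.trace_mul_cycle, ← map_mul, inv_mul_cancel, map_one, one_mul]
    simp_rw [h1]
    rw [Finset.sum_const, Finset.card_univ, ← Nat.card_eq_fintype_card, nsmul_eq_mul]
  have hc' : c * n = (Nat.card K : ℂ) * C.trace := by
    rw [← htr, hc, Matrix.trace_smul, Matrix.trace_one, Fintype.card_fin, smul_eq_mul]
  calc ∑ k : K, (A * M k * C * M k⁻¹).trace = (A * Q).trace := by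
        rw [hQ, Finset.mul_sum, Matrix.trace_sum]
        simp only [mul_assoc]
    _ = c * A.trace := by rw [hc, mul_smul_comm, mul_one, Matrix.trace_smul, smul_eq_mul]
    _ = _ := by field_simp; linear_combination A.trace * hc'

variable [Finite G]

/-- The value of the sum when `x` acts on a representation of `Y ∋ y` as a twist. -/
theorem omega_eq_of_intertwiner (K Y : Subgroup G) (hKY : K ≤ Y)
    (hK : Y ≤ Subgroup.normalizer (K : Set G)) {x : G}
    (hxK : x ∈ Subgroup.normalizer (K : Set G)) (hxY : x ∈ Subgroup.normalizer (Y : Set G))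
    {y : G} (hy : y ∈ Y) (hxy : ⁅x, y⁆ ∈ K) {n : ℕ} (ρ : Representation ℂ Y (Fin n → ℂ))
    [Representation.IsIrreducible (ρ.comp (Subgroup.inclusion hKY) : Representation ℂ K (Fin n → ℂ))]
    (θ : K → ℂ) (hθ : ∀ k, ρ.character (Subgroup.inclusion hKY k) = θ k)
    (α : Y →* ℂˣ) (hα : ∀ k : K, α (Subgroup.inclusion hKY k) = 1)
    (B B' : Matrix (Fin n) (Fin n) ℂ) (hB : B * B' = 1)
    (hint : ∀ w : Y, H26.matHom ρ ⟨x * w * x⁻¹, conj_mem hxY w.2⟩ =
      (α w : ℂ) • (B * H26.matHom ρ w * B')) :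
    omega K θ x y = α ⟨y, hy⟩ := by
  classical
  have := Fintype.ofFinite K
  set σ : Representation ℂ K (Fin n → ℂ) := ρ.comp (Subgroup.inclusion hKY) with hσ
  set M := H26.matHom ρ with hM
  have hMσ : ∀ k : K, H26.matHom σ k = M (Subgroup.inclusion hKY k) := fun k => rfl
  set ey : Y := ⟨y, hy⟩
  let i : K → Y := Subgroup.inclusion hKY
  have hn : (n : ℂ) ≠ 0 := by
    have := H25.finrank_pos_of_isIrreducible σ
    rw [Module.finrank_fin_fun] at this
    exact_mod_cast this.ne'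
  have hθ1 : θ 1 = (n : ℂ) := by
    rw [← hθ 1, map_one, Representation.char_one, Module.finrank_fin_fun]
  have hterm : ∀ k l : K, extFun K θ ⁅x * (k : G), y * (l : G)⁆ = (α ey : ℂ) *
      ((M ey⁻¹ * B * M (i k) * M ey) * H26.matHom σ l * (M (i k)⁻¹ * B') *
        H26.matHom σ l⁻¹).trace := by
    intro k l
    have hc := commutator_mem hxK (hK hy) hxy k l
    rw [extFun_mem K θ hc, ← hθ]
    set w : Y := ey * i l
    have hw : (α w : ℂ) = α ey := by rw [map_mul, hα, mul_one]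
    set w' : Y := i k * w * (i k)⁻¹
    have hw' : (α w' : ℂ) = α ey := by
      rw [map_mul, map_mul, map_inv, hα, one_mul, inv_one, mul_one, hw]
    have helt : Subgroup.inclusion hKY ⟨_, hc⟩ =
        (⟨x * w' * x⁻¹, conj_mem hxY w'.2⟩ : Y) * w⁻¹ := by
      apply Subtype.ext
      simp only [Subgroup.coe_inclusion, Subgroup.coe_mul, Subgroup.coe_inv, w', w, ey, i,
        commutatorElement_def]
      group
    have hchar : ∀ z : Y, ρ.character z = (M z).trace := fun z =>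
      (LinearMap.trace_eq_matrix_trace ℂ (Pi.basisFun ℂ (Fin n)) (ρ z)).trans
        (by rw [LinearMap.toMatrix_eq_toMatrix']; rfl)
    rw [hchar, helt, map_mul, hint, hw', smul_mul_assoc, Matrix.trace_smul, smul_eq_mul]
    congr 1
    simp only [w', w, map_mul, mul_inv_rev, hMσ, map_inv, i]
    rw [show B * (M (Subgroup.inclusion hKY k) * (M ey * M (Subgroup.inclusion hKY l)) *
        M (Subgroup.inclusion hKY k)⁻¹) * B' * (M (Subgroup.inclusion hKY l)⁻¹ * M ey⁻¹) =
        (B * M (Subgroup.inclusion hKY k) * M ey * M (Subgroup.inclusion hKY l) *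
        (M (Subgroup.inclusion hKY k)⁻¹ * B') * M (Subgroup.inclusion hKY l)⁻¹) * M ey⁻¹ by
      simp only [mul_assoc]]
    rw [Matrix.trace_mul_comm]
    simp only [mul_assoc]
  rw [omega_def]
  simp_rw [hterm, ← Finset.mul_sum, sum_conj_trace σ]
  have hA : ∀ k : K, (M ey⁻¹ * B * M (i k) * M ey).trace = (B * M (i k)).trace := fun k => by
    rw [Matrix.trace_mul_comm]
    simp only [← mul_assoc, ← map_mul, mul_inv_cancel, map_one, one_mul]
  have hsum := H43.sum_trace_mul_trace σ B B' hB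
  simp_rw [hMσ] at hsum
  simp only [hA, ← Finset.mul_sum]
  have hsum' : ∑ k : K, (B * M (i k)).trace * (M (i k)⁻¹ * B').trace = (Nat.card K : ℂ) := by
    rw [← hsum]
    refine Finset.sum_congr rfl fun k _ => ?_
    simp only [i, map_inv]
  rw [hsum', hθ1]
  have hK0 : (Nat.card K : ℂ) ≠ 0 := Nat.cast_ne_zero.mpr Nat.card_pos.ne'
  field_simp

/-- The value of the sum from a twisted extension. -/
theorem omega_eq_of_twist (K Y : Subgroup G) (hKY : K ≤ Y)
    (hK : Y ≤ Subgroup.normalizer (K : Set G)) {x : G}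
    (hxK : x ∈ Subgroup.normalizer (K : Set G)) (hxY : x ∈ Subgroup.normalizer (Y : Set G))
    {y : G} (hy : y ∈ Y) (hxy : ⁅x, y⁆ ∈ K) (θ : Cfsg.IrrCharacter K)
    (χ : Cfsg.IrrCharacter Y) (hext : ∀ k, χ.1 (Subgroup.inclusion hKY k) = θ.1 k)
    (α : Y →* ℂˣ) (hα : ∀ k : K, α (Subgroup.inclusion hKY k) = 1)
    (htw : ∀ w : Y, χ.1 ⟨x * w * x⁻¹, conj_mem hxY w.2⟩ = (α w : ℂ) * χ.1 w) :
    omega K θ.1 x y = α ⟨y, hy⟩ := by
  classical
  have := Fintype.ofFinite G
  have := Fintype.ofFinite K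
  obtain ⟨n, ρ, hρ, e⟩ := χ.2
  set σ : Representation ℂ K (Fin n → ℂ) := ρ.comp (Subgroup.inclusion hKY) with hσ
  have hσc : σ.character = θ.1 := funext fun k => by
    rw [← hext k, ← e]; rfl
  haveI : σ.IsIrreducible := by
    obtain ⟨m, τ, hτ, e'⟩ := θ.2
    obtain ⟨f, hf⟩ := H39.exists_equiv_of_char_eq_irreducible τ σ (hσc.trans e'.symm)
    exact H26.isIrreducible_of_equiv (Representation.Equiv.mk f fun a => LinearMap.ext (hf a))
  let c : Y →* Y := MonoidHom.mk' (fun w => ⟨x * w * x⁻¹, conj_mem hxY w.2⟩) fun a b =>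
    Subtype.ext (by simp [mul_assoc])
  let τ₁ : Representation ℂ Y (Fin n → ℂ) :=
    { toFun := fun w => (α w : ℂ) • ρ w
      map_one' := by simp
      map_mul' := fun a b => by
        rw [map_mul, map_mul, Units.val_mul, smul_mul_assoc, mul_smul_comm, smul_smul] }
  have hres : ∀ k : K, τ₁ (Subgroup.inclusion hKY k) = σ k := fun k => by
    show (α (Subgroup.inclusion hKY k) : ℂ) • ρ _ = _
    rw [hα, Units.val_one, one_smul]
    rfl
  haveI : τ₁.IsIrreducible := by
    refine (H26.isIrreducible_iff_forall τ₁).2 ⟨H25.nontrivial_of_isIrreducible σ, fun U hU => ?_⟩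
    exact ((H26.isIrreducible_iff_forall σ).1 inferInstance).2 U fun k v hv =>
      hres k ▸ hU _ v hv
  let τ₂ : Representation ℂ Y (Fin n → ℂ) := ρ.comp c
  have hch : τ₂.character = τ₁.character := funext fun w => by
    show ρ.character (c w) = LinearMap.trace ℂ _ ((α w : ℂ) • ρ w)
    rw [map_smul, smul_eq_mul, e]
    show χ.1 ⟨x * w * x⁻¹, _⟩ = _
    rw [htw, ← e]
    rfl
  obtain ⟨f, hf⟩ := H39.exists_equiv_of_char_eq_irreducible τ₁ τ₂ hch
  set B := LinearMap.toMatrix' (f : (Fin n → ℂ) →ₗ[ℂ] (Fin n → ℂ))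
  set B' := LinearMap.toMatrix' (f.symm : (Fin n → ℂ) →ₗ[ℂ] (Fin n → ℂ))
  refine omega_eq_of_intertwiner K Y hKY hK hxK hxY hy hxy ρ θ.1
    (fun k => by rw [← hext k, ← e]) α hα B B' ?_ fun w => ?_
  · rw [← LinearMap.toMatrix'_comp, ← LinearMap.toMatrix'_id]
    congr 1
    ext v
    simp
  · show LinearMap.toMatrix' (ρ (c w)) =
      (α w : ℂ) • (LinearMap.toMatrix' _ * LinearMap.toMatrix' (ρ w) * LinearMap.toMatrix' _)
    rw [← LinearMap.toMatrix'_comp, ← LinearMap.toMatrix'_comp, ← map_smul]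
    congr 1
    refine LinearMap.ext fun v => ?_
    have h := hf w (f.symm v)
    simp only [LinearEquiv.apply_symm_apply] at h
    change f ((α w : ℂ) • ρ w (f.symm v)) = ρ (c w) v at h
    rw [← h, map_smul]
    rfl

theorem sup_zpowers_normalizer {K : Subgroup G} {x y : G}
    (hx : x ∈ Subgroup.normalizer (K : Set G)) (hy : y ∈ Subgroup.normalizer (K : Set G))
    (hxy : ⁅x, y⁆ ∈ K) :
    (K ⊔ Subgroup.zpowers y ≤ Subgroup.normalizer (K : Set G)) ∧
      x ∈ Subgroup.normalizer ((K ⊔ Subgroup.zpowers y : Subgroup G) : Set G) := by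
  refine ⟨sup_le Subgroup.le_normalizer (Subgroup.zpowers_le.2 hy), ?_⟩
  have hle : (K ⊔ Subgroup.zpowers y).map (MulAut.conj x).toMonoidHom ≤
      K ⊔ Subgroup.zpowers y := by
    rw [Subgroup.map_le_iff_le_comap]
    refine sup_le (fun k hk => ?_) (Subgroup.zpowers_le.2 ?_)
    · exact le_sup_left (α := Subgroup G) (conj_mem hx hk)
    · show x * y * x⁻¹ ∈ K ⊔ Subgroup.zpowers y
      have h := Subgroup.mul_mem _ (le_sup_left (α := Subgroup G) hxy :
          ⁅x, y⁆ ∈ K ⊔ Subgroup.zpowers y)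
        (le_sup_right (α := Subgroup G) (Subgroup.mem_zpowers y) :
          y ∈ K ⊔ Subgroup.zpowers y)
      rwa [commutatorElement_def, inv_mul_cancel_right] at h
  have hmap : (K ⊔ Subgroup.zpowers y).map (MulAut.conj x).toMonoidHom =
      K ⊔ Subgroup.zpowers y :=
    Subgroup.eq_of_le_of_card_ge hle
      (Subgroup.card_map_of_injective (MulAut.conj x).injective).ge
  rw [Subgroup.mem_normalizer_iff]
  intro z
  constructor
  · intro hz
    rw [← hmap]
    exact ⟨z, hz, rfl⟩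
  · intro hz
    rw [← hmap] at hz
    obtain ⟨w, hw, he⟩ := hz
    have : w = z := (MulAut.conj x).injective he
    exact this ▸ hw

/-- An extension to `K⟨y⟩` of a character fixed by `y`. -/
theorem exists_ext_zpowers (K : Subgroup G) {y : G} (hy : y ∈ Subgroup.normalizer (K : Set G))
    (θ : Cfsg.IrrCharacter K) (hθ : Fix K θ.1 y) :
    ∃ χ : Cfsg.IrrCharacter (K ⊔ Subgroup.zpowers y : Subgroup G),
      ∀ k, χ.1 (Subgroup.inclusion le_sup_left k) = θ.1 k := by
  classical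
  have := Fintype.ofFinite G
  set Y := K ⊔ Subgroup.zpowers y with hY
  have hYn : Y ≤ Subgroup.normalizer (K : Set G) :=
    sup_le Subgroup.le_normalizer (Subgroup.zpowers_le.2 hy)
  have : (K.subgroupOf Y).Normal :=
    (Subgroup.normal_subgroupOf_iff_le_normalizer le_sup_left).2 hYn
  let e := Subgroup.subgroupOfEquivOfLe (H := K) (K := Y) le_sup_left
  obtain ⟨n, σ, hσ, eσ⟩ := (H43.irrCongr e θ).2
  haveI := hσ
  set ey : Y := ⟨y, le_sup_right (α := Subgroup G) (Subgroup.mem_zpowers y)⟩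
  have hinv : ∀ (g : Y) (m : K.subgroupOf Y),
      σ.character (H39.conjN g m) = σ.character m := by
    let T : Subgroup Y :=
      { carrier := {g | ∀ m : K.subgroupOf Y, σ.character (H39.conjN g m) = σ.character m}
        one_mem' := fun m => by rw [H39.conjN_one]
        mul_mem' := fun {a b} ha hb m => by rw [H39.conjN_mul, ha, hb]
        inv_mem' := fun {a} ha m => by
          have h := ha (H39.conjN a⁻¹ m)
          rw [← H39.conjN_mul, mul_inv_cancel, H39.conjN_one] at h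
          exact h.symm }
    have hK : K.subgroupOf Y ≤ T := fun g hg m => by
      rw [eσ]
      have h := H26.irr_conj (H43.irrCongr e θ) m ⟨g, hg⟩
      convert h using 2
      exact Subtype.ext rfl
    have hey : ey ∈ T := fun m => by
      rw [eσ]
      exact hθ _ _ rfl
    intro g
    suffices g ∈ T from this
    have hle : Y ≤ T.map Y.subtype := sup_le
      (fun k hk => ⟨⟨k, le_sup_left (α := Subgroup G) hk⟩, hK (Subgroup.mem_subgroupOf.2 hk), rfl⟩)
      (Subgroup.zpowers_le.2 ⟨ey, hey, rfl⟩)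
    obtain ⟨g', hg', he⟩ := hle g.2
    exact Subtype.ext he ▸ hg'
  have hcyc : IsCyclic (Y ⧸ K.subgroupOf Y) := by
    refine ⟨⟨(ey : Y ⧸ K.subgroupOf Y), fun q => ?_⟩⟩
    obtain ⟨g, rfl⟩ := QuotientGroup.mk_surjective q
    set U : Subgroup Y := (Subgroup.zpowers (ey : Y ⧸ K.subgroupOf Y)).comap
      (QuotientGroup.mk' _)
    have hK : K.subgroupOf Y ≤ U := fun g hg => by
      show (g : Y ⧸ K.subgroupOf Y) ∈ Subgroup.zpowers (ey : Y ⧸ K.subgroupOf Y)
      rw [(QuotientGroup.eq_one_iff g).2 hg]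
      exact Subgroup.one_mem _
    have hle : Y ≤ U.map Y.subtype := sup_le
      (fun k hk => ⟨⟨k, le_sup_left (α := Subgroup G) hk⟩, hK (Subgroup.mem_subgroupOf.2 hk), rfl⟩)
      (Subgroup.zpowers_le.2 ⟨ey, Subgroup.mem_zpowers (ey : Y ⧸ K.subgroupOf Y), rfl⟩)
    obtain ⟨g', hg', he⟩ := hle g.2
    rw [Subtype.ext he] at hg'
    exact hg'
  obtain ⟨χ, hχ, hres⟩ := H39.exists_ext_of_cyclic_quotient σ hcyc hinv
  refine ⟨⟨χ, hχ⟩, fun k => ?_⟩
  have h := hres (e.symm k)
  rw [eσ, H43.irrCongr_apply, MulEquiv.apply_symm_apply] at h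
  exact h

/-- When both elements fix `θ` the sum is a twist at `y`. -/
theorem exists_twist (K : Subgroup G) {x y : G} (hx : x ∈ Subgroup.normalizer (K : Set G))
    (hy : y ∈ Subgroup.normalizer (K : Set G)) (hxy : ⁅x, y⁆ ∈ K) (θ : Cfsg.IrrCharacter K)
    (hfx : Fix K θ.1 x) (χ : Cfsg.IrrCharacter (K ⊔ Subgroup.zpowers y : Subgroup G))
    (hext : ∀ k, χ.1 (Subgroup.inclusion le_sup_left k) = θ.1 k) :
    ∃ α : (K ⊔ Subgroup.zpowers y : Subgroup G) →* ℂˣ,
      (∀ k : K, α (Subgroup.inclusion le_sup_left k) = 1) ∧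
      ∀ w : (K ⊔ Subgroup.zpowers y : Subgroup G),
        χ.1 ⟨x * w * x⁻¹, conj_mem (sup_zpowers_normalizer hx hy hxy).2 w.2⟩ =
          (α w : ℂ) * χ.1 w := by
  classical
  have := Fintype.ofFinite G
  obtain ⟨hYn, hxY⟩ := sup_zpowers_normalizer hx hy hxy
  let Y := K ⊔ Subgroup.zpowers y
  have : (K.subgroupOf Y).Normal :=
    (Subgroup.normal_subgroupOf_iff_le_normalizer le_sup_left).2 hYn
  let e := Subgroup.subgroupOfEquivOfLe (H := K) (K := Y) le_sup_left
  let c : Y ≃* Y :=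
    { toFun := fun w => ⟨x * w * x⁻¹, conj_mem hxY w.2⟩
      invFun := fun w => ⟨x⁻¹ * w * x⁻¹⁻¹,
        conj_mem ((Subgroup.normalizer (Y : Set G)).inv_mem hxY) w.2⟩
      left_inv := fun w => Subtype.ext (by simp [mul_assoc])
      right_inv := fun w => Subtype.ext (by simp [mul_assoc])
      map_mul' := fun a b => Subtype.ext (by simp [mul_assoc]) }
  obtain ⟨α, hα, heq⟩ := H43.exists_hom_of_restrict_eq (K.subgroupOf Y) χ (H43.irrCongr c χ)
    (H43.irrCongr e θ) (fun m => hext (e m)) (fun m => by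
      have hmem : x * ((m : Y) : G) * x⁻¹ ∈ K := conj_mem hx (e m).2
      show χ.1 (c m) = θ.1 (e m)
      rw [← hfx (e m) ⟨_, hmem⟩ rfl, ← hext]
      rfl)
  refine ⟨α, fun k => hα _ k.2, fun w => ?_⟩
  have h := congrArg (fun ψ : Cfsg.IrrCharacter Y => ψ.1 w) heq
  rw [H43.irrTwist_apply] at h
  rw [mul_comm]
  exact h

/-- An element moving `θ` kills the sum. -/
theorem omega_eq_zero (K : Subgroup G) {x y : G} (hx : x ∈ Subgroup.normalizer (K : Set G))
    (hy : y ∈ Subgroup.normalizer (K : Set G)) (hxy : ⁅x, y⁆ ∈ K) (θ : Cfsg.IrrCharacter K)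
    (hfy : ¬ Fix K θ.1 y) : omega K θ.1 x y = 0 := by
  classical
  have := Fintype.ofFinite G
  rw [omega_def, mul_eq_zero]
  right
  rw [Finset.sum_comm]
  refine Finset.sum_eq_zero fun l _ => ?_
  obtain ⟨n, σ, hσ, e⟩ := θ.2
  haveI := hσ
  have hw : y * (l : G) ∈ Subgroup.normalizer (K : Set G) :=
    Subgroup.mul_mem _ hy (Subgroup.le_normalizer l.2)
  have hxw : x * (y * (l : G)) ∈ Subgroup.normalizer (K : Set G) := Subgroup.mul_mem _ hx hw
  let c₁ : K →* K := MonoidHom.mk' (fun k => ⟨x * k * x⁻¹, conj_mem hx k.2⟩) fun a b =>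
    Subtype.ext (by simp [mul_assoc])
  let c₂ : K →* K := MonoidHom.mk'
    (fun k => ⟨x * (y * l) * k * (x * (y * l))⁻¹, conj_mem hxw k.2⟩) fun a b =>
    Subtype.ext (by simp [mul_assoc])
  have hd : ⁅x, y * (l : G)⁆ ∈ K := by
    simpa using commutator_mem hx hy hxy 1 l
  have hterm : ∀ k : K, extFun K θ.1 ⁅x * (k : G), y * (l : G)⁆ =
      LinearMap.trace ℂ _ (σ (c₁ k) * σ (c₂ k)⁻¹ * σ ⟨_, hd⟩) := by
    intro k
    rw [extFun_mem K θ.1 (commutator_mem hx hy hxy k l), ← e]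
    show LinearMap.trace ℂ _ (σ _) = _
    rw [← map_mul, ← map_mul]
    congr 2
    apply Subtype.ext
    simp only [Subgroup.coe_mul, Subgroup.coe_inv, c₁, c₂, MonoidHom.mk'_apply,
      commutatorElement_def]
    group
  simp_rw [hterm, ← map_sum, ← Finset.sum_mul]
  suffices hT : ∑ k : K, σ (c₁ k) * σ (c₂ k)⁻¹ = 0 by rw [hT, zero_mul, map_zero]
  set T : Module.End ℂ (Fin n → ℂ) := ∑ k : K, σ (c₁ k) * σ (c₂ k)⁻¹ with hTdef
  let τ₁ : Representation ℂ K (Fin n → ℂ) := σ.comp c₁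
  let τ₂ : Representation ℂ K (Fin n → ℂ) := σ.comp c₂
  have hc₁ : Function.Surjective c₁ := fun k =>
    ⟨⟨x⁻¹ * k * x⁻¹⁻¹, conj_mem ((Subgroup.normalizer (K : Set G)).inv_mem hx) k.2⟩,
      Subtype.ext (by simp [c₁, mul_assoc])⟩
  have hc₂ : Function.Surjective c₂ := fun k =>
    ⟨⟨(x * (y * l))⁻¹ * k * (x * (y * l))⁻¹⁻¹,
      conj_mem ((Subgroup.normalizer (K : Set G)).inv_mem hxw) k.2⟩,
      Subtype.ext (by simp [c₂, mul_assoc])⟩
  haveI : τ₁.IsIrreducible := H43.isIrreducible_comp_surjective σ c₁ hc₁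
  haveI : τ₂.IsIrreducible := H43.isIrreducible_comp_surjective σ c₂ hc₂
  have hne : τ₁.character ≠ τ₂.character := by
    intro heq
    apply hfy
    have hmain : ∀ a b : K, (b : G) = y * a * y⁻¹ → θ.1 b = θ.1 a := by
      intro a b hb
      obtain ⟨a', ha'⟩ := hc₁ a
      have h := congrFun heq a'
      change σ.character (c₁ a') = σ.character (c₂ a') at h
      rw [e, ha'] at h
      -- `c₂ a'` is a `K`-conjugate of `y a y⁻¹`
      set l' : K := ⟨x * l * x⁻¹, conj_mem hx l.2⟩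
      set d' : K := l' * a * l'⁻¹
      have hd' : c₂ a' = (⟨_, hxy⟩ : K) * ⟨y * d' * y⁻¹, conj_mem hy d'.2⟩ * (⟨_, hxy⟩ : K)⁻¹ := by
        apply Subtype.ext
        have ha2 : (a : G) = x * a' * x⁻¹ := by rw [← ha']; rfl
        simp only [c₂, d', l', MonoidHom.mk'_apply, Subgroup.coe_mul, Subgroup.coe_inv, ha2,
          commutatorElement_def]
        group
      have hd2 : (⟨y * d' * y⁻¹, conj_mem hy d'.2⟩ : K) =
          ⟨y * l' * y⁻¹, conj_mem hy l'.2⟩ * b * ⟨y * l' * y⁻¹, conj_mem hy l'.2⟩⁻¹ := by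
        apply Subtype.ext
        simp only [d', Subgroup.coe_mul, Subgroup.coe_inv, hb]
        group
      rw [hd', H26.irr_conj, hd2, H26.irr_conj] at h
      exact h.symm
    exact hmain
  have hcomm : ∀ a, τ₁ a * T = T * τ₂ a := fun a => by
    rw [hTdef, Finset.mul_sum, Finset.sum_mul]
    refine Fintype.sum_equiv (Equiv.mulLeft a) _ _ fun g => ?_
    show σ (c₁ a) * (σ (c₁ g) * σ (c₂ g)⁻¹) = σ (c₁ (a * g)) * σ (c₂ (a * g))⁻¹ * σ (c₂ a)
    rw [mul_assoc (σ (c₁ (a * g))), ← map_mul σ (c₂ (a * g))⁻¹, map_mul c₁, map_mul c₂,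
      mul_inv_rev, inv_mul_cancel_right, map_mul σ (c₁ a), mul_assoc]
  let F : Representation.IntertwiningMap τ₂ τ₁ :=
    ⟨T, fun a => (hcomm a).symm⟩
  have hfin : Module.finrank ℂ (Representation.IntertwiningMap τ₂ τ₁) = 0 := by
    have h := H26.classInner_irr (H26.irrOf τ₁) (H26.irrOf τ₂)
    rw [if_neg fun h => hne (congrArg Subtype.val h)] at h
    change Cfsg.classInner τ₁.character τ₂.character = 0 at h
    rw [H26.classInner_char_eq_finrank τ₂ τ₁] at h
    exact_mod_cast h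
  have : Subsingleton (Representation.IntertwiningMap τ₂ τ₁) :=
    Module.finrank_zero_iff.1 hfin
  exact congrArg Representation.IntertwiningMap.toLinearMap (Subsingleton.elim F 0)

/-- Multiplicativity in the first element. -/
theorem omega_mul (K : Subgroup G) {x x' y : G} (hx : x ∈ Subgroup.normalizer (K : Set G))
    (hx' : x' ∈ Subgroup.normalizer (K : Set G)) (hy : y ∈ Subgroup.normalizer (K : Set G))
    (hxy : ⁅x, y⁆ ∈ K) (hxy' : ⁅x', y⁆ ∈ K) (θ : Cfsg.IrrCharacter K)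
    (hfx : Fix K θ.1 x) (hfx' : Fix K θ.1 x') (hfy : Fix K θ.1 y) :
    omega K θ.1 (x * x') y = omega K θ.1 x y * omega K θ.1 x' y := by
  obtain ⟨hYn, hxY⟩ := sup_zpowers_normalizer hx hy hxy
  obtain ⟨-, hxY'⟩ := sup_zpowers_normalizer hx' hy hxy'
  obtain ⟨χ, hext⟩ := exists_ext_zpowers K hy θ hfy
  obtain ⟨α, hα, htw⟩ := exists_twist K hx hy hxy θ hfx χ hext
  obtain ⟨β, hβ, htw'⟩ := exists_twist K hx' hy hxy' θ hfx' χ hext
  let Y := K ⊔ Subgroup.zpowers y
  have hyY : y ∈ Y := le_sup_right (α := Subgroup G) (Subgroup.mem_zpowers y)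
  let c : Y →* Y := MonoidHom.mk' (fun w => ⟨x' * w * x'⁻¹, conj_mem hxY' w.2⟩) fun a b =>
    Subtype.ext (by simp [mul_assoc])
  have hαc : ∀ w, α (c w) = α w := by
    have hle : Y ≤ ((α.comp c).eqLocus α).map Y.subtype := by
      refine sup_le (fun k hk => ⟨⟨k, le_sup_left (α := Subgroup G) hk⟩, ?_, rfl⟩)
        (Subgroup.zpowers_le.2 ⟨⟨y, hyY⟩, ?_, rfl⟩)
      · exact (hα ⟨x' * k * x'⁻¹, conj_mem hx' hk⟩).trans (hα ⟨k, hk⟩).symm
      · show α (c ⟨y, hyY⟩) = α ⟨y, hyY⟩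
        have hc : c ⟨y, hyY⟩ = Subgroup.inclusion le_sup_left ⟨_, hxy'⟩ * ⟨y, hyY⟩ :=
          Subtype.ext (show x' * y * x'⁻¹ = ⁅x', y⁆ * y by
            rw [commutatorElement_def, inv_mul_cancel_right])
        rw [hc, map_mul, hα, one_mul]
    intro w
    obtain ⟨w', hw', he⟩ := hle w.2
    rw [Subtype.ext he] at hw'
    exact hw'
  rw [omega_eq_of_twist K Y le_sup_left hYn hx hxY hyY hxy θ χ hext α hα htw,
    omega_eq_of_twist K Y le_sup_left hYn hx' hxY' hyY hxy' θ χ hext β hβ htw',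
    omega_eq_of_twist K Y le_sup_left hYn (Subgroup.mul_mem _ hx hx')
      (Subgroup.mul_mem _ hxY hxY') hyY (commutator_mul_mem hx hxy hxy') θ χ hext (α * β)
      (fun k => by rw [MonoidHom.mul_apply, hα, hβ, one_mul]) fun w => ?_,
    MonoidHom.mul_apply, Units.val_mul]
  have h1 : (⟨x * x' * w * (x * x')⁻¹,
      conj_mem (Subgroup.mul_mem _ hxY hxY') w.2⟩ : Y) =
      ⟨x * (c w : G) * x⁻¹, conj_mem hxY (c w).2⟩ :=
    Subtype.ext (by simp [c, mul_assoc])
  rw [h1, htw, hαc, MonoidHom.mul_apply, Units.val_mul, mul_assoc]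
  exact congrArg _ (htw' w)

/-- The sum of an element with itself is one. -/
theorem omega_self (K : Subgroup G) {x : G} (hx : x ∈ Subgroup.normalizer (K : Set G))
    (θ : Cfsg.IrrCharacter K) (hfx : Fix K θ.1 x) : omega K θ.1 x x = 1 := by
  obtain ⟨hYn, hxY⟩ := sup_zpowers_normalizer hx hx (self_commutator_mem K x)
  obtain ⟨χ, hext⟩ := exists_ext_zpowers K hx θ hfx
  let Y := K ⊔ Subgroup.zpowers x
  have hxx : x ∈ Y := le_sup_right (α := Subgroup G) (Subgroup.mem_zpowers x)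
  rw [omega_eq_of_twist K Y le_sup_left hYn hx hxY hxx (self_commutator_mem K x) θ χ hext 1
    (fun k => rfl) fun w => ?_]
  · simp
  · rw [MonoidHom.one_apply, Units.val_one, one_mul]
    exact H26.irr_conj χ w ⟨x, hxx⟩

/-- The sum does not change on passing to an irreducible restriction. -/
theorem omega_restrict (K M : Subgroup G) (hKM : K ≤ M) {x y : G}
    (hx : x ∈ Subgroup.normalizer (K : Set G)) (hy : y ∈ Subgroup.normalizer (K : Set G))
    (hxM : x ∈ Subgroup.normalizer (M : Set G)) (hyM : y ∈ Subgroup.normalizer (M : Set G))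
    (hxy : ⁅x, y⁆ ∈ K) (θ : Cfsg.IrrCharacter K) (ψ : Cfsg.IrrCharacter M)
    (hres : ∀ k, ψ.1 (Subgroup.inclusion hKM k) = θ.1 k)
    (hfx : Fix M ψ.1 x) (hfy : Fix M ψ.1 y) :
    omega M ψ.1 x y = omega K θ.1 x y := by
  obtain ⟨hYn, hxY⟩ := sup_zpowers_normalizer hxM hyM (hKM hxy)
  obtain ⟨hYn', hxY'⟩ := sup_zpowers_normalizer hx hy hxy
  obtain ⟨χ, hext⟩ := exists_ext_zpowers M hyM ψ hfy
  obtain ⟨α, hα, htw⟩ := exists_twist M hxM hyM (hKM hxy) ψ hfx χ hext
  let Y := M ⊔ Subgroup.zpowers y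
  let Y' := K ⊔ Subgroup.zpowers y
  have hle : Y' ≤ Y := sup_le_sup_right hKM _
  have hyY : y ∈ Y' := le_sup_right (α := Subgroup G) (Subgroup.mem_zpowers y)
  rw [omega_eq_of_twist M Y le_sup_left hYn hxM hxY (hle hyY) (hKM hxy) ψ χ hext α hα htw]
  have hresK : ∀ k : K, χ.1 (Subgroup.inclusion hle (Subgroup.inclusion le_sup_left k)) =
      θ.1 k := fun k => (hext (Subgroup.inclusion hKM k)).trans (hres k)
  obtain ⟨n, ρ, hρ, e⟩ := χ.2
  have := Fintype.ofFinite G
  let ρ' : Representation ℂ Y' (Fin n → ℂ) := ρ.comp (Subgroup.inclusion hle)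
  haveI : ρ'.IsIrreducible := by
    obtain ⟨m, τ, hτ, e'⟩ := θ.2
    let σ : Representation ℂ K (Fin n → ℂ) := ρ'.comp (Subgroup.inclusion le_sup_left)
    obtain ⟨f, hf⟩ := H39.exists_equiv_of_char_eq_irreducible τ σ (funext fun k => by
      rw [e', ← hresK k, ← e]; rfl)
    haveI : σ.IsIrreducible :=
      H26.isIrreducible_of_equiv (Representation.Equiv.mk f fun a => LinearMap.ext (hf a))
    exact (H26.isIrreducible_iff_forall ρ').2 ⟨H25.nontrivial_of_isIrreducible σ, fun U hU =>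
      ((H26.isIrreducible_iff_forall σ).1 inferInstance).2 U fun k v hv => hU _ v hv⟩
  have hχ' : ∀ w, (H26.irrOf ρ').1 w = χ.1 (Subgroup.inclusion hle w) := fun w => by
    show ρ'.character w = _
    rw [← e]; rfl
  rw [omega_eq_of_twist K Y' le_sup_left hYn' hx hxY' hyY hxy θ (H26.irrOf ρ')
    (fun k => (hχ' _).trans (hresK k)) (α.comp (Subgroup.inclusion hle))
    (fun k => hα (Subgroup.inclusion hKM k)) fun w => by
      rw [hχ', hχ', MonoidHom.comp_apply]
      exact htw (Subgroup.inclusion hle w)]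
  rfl

omit [Finite G] in
/-- Transport along a homomorphism which is injective on the subgroup. -/
theorem omega_map {G' : Type*} [Group G'] (f : G →* G') (K : Subgroup G) (K' : Subgroup G')
    (e : K ≃* K') (he : ∀ k : K, (e k : G') = f k) (θ : K → ℂ) (θ' : K' → ℂ)
    (hθ : ∀ k, θ' (e k) = θ k) {x y : G} (hx : x ∈ Subgroup.normalizer (K : Set G))
    (hy : y ∈ Subgroup.normalizer (K : Set G)) (hxy : ⁅x, y⁆ ∈ K) :
    omega K' θ' (f x) (f y) = omega K θ x y := by
  rw [omega, omega, ← hθ 1, map_one, ← Nat.card_congr e.toEquiv,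
    finsum_eq_of_bijective e e.bijective]
  intro k
  refine (finsum_eq_of_bijective e e.bijective fun l => ?_)
  rw [extFun_mem K θ (commutator_mem hx hy hxy k l), ← hθ]
  have hmem : ⁅f x * (e k : G'), f y * (e l : G')⁆ ∈ K' := by
    rw [he, he, ← map_mul, ← map_mul, ← map_commutatorElement,
      show f ⁅x * (k : G), y * (l : G)⁆ = (e ⟨_, commutator_mem hx hy hxy k l⟩ : G') from
        (he ⟨_, commutator_mem hx hy hxy k l⟩).symm]
    exact Subtype.mem _
  rw [extFun_mem K' θ' hmem]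
  congr 1
  apply Subtype.ext
  rw [he]
  simp [he, commutatorElement_def]

end Cfsg.Agent.H63.McKay
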